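import Cfsg.Agent.H65.Cos.Reduce
import Cfsg.Agent.H135.TwoGenTab

/-!
# S4180, Cos2 rows E7(q) and E8(q) (helper65)
-/

set_option autoImplicit false

namespace Cfsg.Agent.H65.Cos

open Cfsg.Lie Cfsg.Agent.ChevalleyStructure Cfsg.Agent.ChevalleyStructure.Elts
  Cfsg.Agent.H70.ChevFix Cfsg.Agent.H70.ChevField Cfsg.Agent.H70.OutCount Cfsg.Agent.H70.ChevDiag
  Cfsg.Agent.H20.Cos2 Cfsg.Agent.H891.Gen Cfsg.Agent.H891.DG Cfsg.Agent.H891.DG.Nielsen
  Cfsg.Agent.H135.TwoG Cfsg.Agent.H440.TwoGen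
open Cfsg.Agent.ChevalleyStructure.W0E7 (tabE7 tabE7_ok)
open Cfsg.Agent.ChevalleyStructure.W0E8 (tabE8 tabE8_ok)

universe u

variable {D : ChevalleyDatum} {F : Type u} [Field F]

/-- a pair of automorphisms of inner-diagonal-field type, the first one with trivial field part -/
theorem lift_id [Finite F] (hD : InList D) {l : List ℕ} (hl : ∀ i ∈ l, i < D.rank)
    {W₀ : ℕ → ℕ} (hW₀ : ∀ s < D.nroots, W₀ s = wact D l s) {a a' : ℕ} (ha : a < D.nroots) (ha' : a' < D.nroots)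
    (h1 : W₀ a' = a) {n1 n2 : ℕ → ℤ} (p1 : pr D n1 a D.rank = 1) (p2 : pr D n1 a' D.rank = 0)
    (p3 : pr D n2 a D.rank = 0) (p4 : pr D n2 a' D.rank = 1) {steps : List (ℕ × ℕ)}
    (hrun : run D W₀ (1 <<< a) steps = 2 ^ D.nroots - 1)
    {W W' : MulAut ↥(D.group F)} {d d' : ℕ → Fˣ} {σ' : F ≃+* F}
    (h2 : Mono hD W id d (RingEquiv.refl F)) (h3 : Mono hD W' id d' σ') :
    Lift (MulAut.conj : ↥(D.group F) →* MulAut ↥(D.group F)).range W W' := by
  classical
  obtain ⟨k, hk⟩ := IsCyclic.exists_generator (α := Fˣ)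
  obtain ⟨c, hc⟩ := mono_word (F := F) (hD := hD) hl
  set wd : ↥(D.group F) := ⟨wG hD F l, wG_mem_group hD l⟩ with hwd
  obtain ⟨dd, hm⟩ : ∃ dd, Mono hD (MulAut.conj wd * W') (wact D l) dd (σ'.trans (RingEquiv.refl F)) :=
    ⟨_, hc.mul h3⟩
  have hw : ∀ r < D.nroots, ∃ c : F, c ≠ 0 ∧ ∀ t : F, (MulAut.conj wd * W') (xe hD r t) = xe hD (W₀ r)
      (c * (σ'.trans (RingEquiv.refl F)) t) := by
    intro r hr
    refine ⟨dd r, (dd r).ne_zero, fun t => ?_⟩
    rw [hm.eq r hr t, hW₀ r hr]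
  have hWs : ∀ s < D.nroots, ∃ r < D.nroots, W₀ r = s := by
    intro s hs
    obtain ⟨r, hr, h⟩ := hc.surj s hs
    exact ⟨r, hr, (hW₀ r hr).trans h⟩
  have hN := inn_normal ↥(D.group F)
  have e : W' * (W'⁻¹ * (xa hD a 1 * MulAut.conj wd) * (W'⁻¹)⁻¹) = xa hD a 1 * (MulAut.conj wd * W') := by group
  by_cases hk1 : k = 1
  · -- the field with two elements
    have hu : ∀ x : Fˣ, x = 1 := by
      intro x
      obtain ⟨n, hn⟩ := hk x
      have hn' : k ^ n = x := hn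
      rw [← hn', hk1, one_zpow]
    have hF : ∀ x : F, x = 0 ∨ x = 1 := by
      intro x
      by_cases hx : x = 0
      · exact Or.inl hx
      · exact Or.inr (congrArg Units.val (hu (Units.mk0 x hx)))
    have hW1 : W = 1 := by
      apply aut_ext hD
      intro r hr t
      rw [h2.eq r hr, hu (d r), Units.val_one, one_mul]
      rfl
    have hσ : ∀ t : F, σ' t = t := by
      intro t
      rcases hF t with rfl | rfl
      · exact map_zero _
      · exact map_one _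
    have hW1' : W' = 1 := by
      apply aut_ext hD
      intro r hr t
      rw [h3.eq r hr, hu (d' r), Units.val_one, one_mul, hσ]
      rfl
    refine ⟨xa hD a 1, ⟨_, rfl⟩, MulAut.conj wd, ⟨_, rfl⟩, ?_⟩
    subst hW1 hW1'
    rw [one_mul]
    refine range_le_of_one (W := W₀) (τ := fun _ => σ'.trans (RingEquiv.refl F)) hw ?_ (a := a) ?_ hrun
    · rw [mul_one, one_mul]
      exact Subgroup.subset_closure (by simp)
    · intro t
      rcases hF t with rfl | rfl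
      · rw [xa_zero]
        exact one_mem _
      · exact Subgroup.subset_closure (by simp)
  · obtain ⟨g, χ, h4, h5, h6⟩ := adjust' hD h2.eq p1 p2 p3 p4 k k
    refine ⟨MulAut.conj g, ⟨g, rfl⟩, W'⁻¹ * (xa hD a 1 * MulAut.conj wd) * (W'⁻¹)⁻¹,
      hN.conj_mem _ (mul_mem ⟨_, rfl⟩ ⟨_, rfl⟩) _, ?_⟩
    rw [e]
    exact gen_one hD (conj_injective hD) hk hk1 hWs h4 hw ha ha' h1 h5 (by rw [h6]; exact hk1) hrun

/-- the untwisted types without diagram symmetries -/
theorem cos_id [Finite F] (hD : InList D) (hs : ∀ π : Equiv.Perm (Fin D.rank), D.IsDiagramSymmetry π → π = 1)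
    {l : List ℕ} (hl : ∀ i ∈ l, i < D.rank)
    {W₀ : ℕ → ℕ} (hW₀ : ∀ s < D.nroots, W₀ s = wact D l s) {a a' : ℕ} (ha : a < D.nroots) (ha' : a' < D.nroots)
    (h1 : W₀ a' = a) {n1 n2 : ℕ → ℤ} (p1 : pr D n1 a D.rank = 1) (p2 : pr D n1 a' D.rank = 0)
    (p3 : pr D n2 a D.rank = 0) (p4 : pr D n2 a' D.rank = 1) {steps : List (ℕ × ℕ)}
    (hrun : run D W₀ (1 <<< a) steps = 2 ^ D.nroots - 1) :
    ∀ x y : MulAut ↥(D.group F), Lift (MulAut.conj : ↥(D.group F) →* MulAut ↥(D.group F)).range x y := by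
  refine cos2_of_mono hD (fun ω => ω = id) (fun ω ω' h h' => by rw [h, h']; rfl) ?_ ?_
  · intro θ
    obtain ⟨g, W, χ, τ, h2, h3⟩ := exists_mono_id hD hs θ
    exact ⟨g, W, id, χ, τ, rfl, h2, h3⟩
  · rintro W W' ω ω' d d' σ' rfl rfl h2 h3
    exact lift_id hD hl hW₀ ha ha' h1 p1 p2 p3 p4 hrun h2 h3

theorem cosE7 (F : Type u) [Field F] [Finite F] : ∀ x y : MulAut ↥(chevE7.group F),
    Lift (MulAut.conj : ↥(chevE7.group F) →* MulAut ↥(chevE7.group F)).range x y :=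
  cos_id (D := chevE7) (by simp) (fun _ h => H79.DiagSymm.eq_one_E7 h) (l := [0, 1, 2, 3, 4, 5, 6]) (by decide +kernel)
    (W₀ := wT tabE7 [0, 1, 2, 3, 4, 5, 6]) (wT_eq (by simp) tabE7_ok (by decide +kernel)) (a := 3) (a' := 10)
    (by decide +kernel) (by decide +kernel) (by decide +kernel) (n1 := fun i => if i = 4 then -1 else 0)
    (n2 := fun i => if i = 6 then 1 else 0) (by decide +kernel) (by decide +kernel) (by decide +kernel)
    (by decide +kernel) (steps := twoStepsE7) (by decide +kernel)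

theorem cosE8 (F : Type u) [Field F] [Finite F] : ∀ x y : MulAut ↥(chevE8.group F),
    Lift (MulAut.conj : ↥(chevE8.group F) →* MulAut ↥(chevE8.group F)).range x y :=
  cos_id (D := chevE8) (by simp) (fun _ h => H79.DiagSymm.eq_one_E8 h) (l := [0, 1, 2, 3, 4, 5, 6, 7])
    (by decide +kernel) (W₀ := wT tabE8 [0, 1, 2, 3, 4, 5, 6, 7]) (wT_eq (by simp) tabE8_ok (by decide +kernel))
    (a := 0) (a' := 1) (by decide +kernel) (by decide +kernel) (by decide +kernel)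
    (n1 := fun i => if i = 6 ∨ i = 7 then -1 else 0) (n2 := fun i => if i = 6 then -1 else 0) (by decide +kernel)
    (by decide +kernel) (by decide +kernel) (by decide +kernel) (steps := twoStepsE8) (by decide +kernel)

/-- **Row E7.** -/
theorem cos2_e7 (T : Type u) [Group T] [Finite T] [IsSimpleGroup T] (h : Cfsg.Lie.IsoE7 T) : Cos2 T := by
  obtain ⟨F, _, _, ⟨e⟩⟩ := h
  exact cos2_of_equiv e (cosE7 F)

/-- **Row E8.** -/
theorem cos2_e8 (T : Type u) [Group T] [Finite T] [IsSimpleGroup T] (h : Cfsg.Lie.IsoE8 T) : Cos2 T := by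
  obtain ⟨F, _, _, ⟨e⟩⟩ := h
  exact cos2_of_equiv e (cosE8 F)

end Cfsg.Agent.H65.Cos
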