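import Cfsg.Agent.H135.TwoGen
import Cfsg.Agent.H70.OutCount

/-!
# Generation of the inner automorphism group by two automorphisms: Chevalley groups (helper65)

`G = D.group F`, `F` finite, `h` an automorphism of `G` acting on `X_r` as the multiplication by `χ r`; `w` an
automorphism mapping `x_r(t)` to `x_{W r}(c_r τ_r(t))`, `W a' = a`, `χ a` a generator of `Fˣ`, `χ a' ≠ 1`.

* `core`: a subgroup containing `h` and `x_a(1) w` contains `X_a` and `w`;
* `gen_one`: if the closure steps reach all roots from `a`, then `⟨h, x_a(1) w⟩ ≥ Inn G`;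
* `gen_aut`: the same for `⟨h x_b(1), x_a(1) w⟩`, `χ b = 1`, starting from `a` and `b'`, `W b' = b`, `χ b' = k, k^2`.
-/

set_option autoImplicit false

namespace Cfsg.Agent.H65.Cos

open Cfsg.Lie Cfsg.Agent.ChevalleyStructure Cfsg.Agent.ChevalleyStructure.Elts Cfsg.Agent.H135.TwoG
  Cfsg.Agent.H70.ChevFix

universe u

variable {D : ChevalleyDatum} {F : Type u} [Field F]

/-! ### closure steps with a general rotation -/

theorem step_sound' {hD : InList D} {M : Subgroup (GL D.Idx F)} {W : ℕ → ℕ}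
    (hrot : ∀ s < D.nroots, Has hD M s → Has hD M (W s)) {S : ℕ} (hS : ∀ k, Nat.testBit S k = true → Has hD M k)
    (p : ℕ × ℕ) : ∀ k, Nat.testBit (step D W S p) k = true → Has hD M k := by
  intro k hk
  unfold step at hk
  split_ifs at hk with h1 h2 h3
  · rcases testBit_insert hk with h | rfl
    · exact hS k h
    · exact hrot _ h2.2 (hS _ h2.1)
  · exact hS k hk
  · obtain ⟨ha, hb, hr, hs, hneg⟩ := h3
    split at hk
    · rename_i e he
      split_ifs at hk with hg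
      · rcases testBit_insert hk with h | rfl
        · exact hS k h
        · intro v
          obtain ⟨t, u, rfl⟩ := good_spec (F := F) hg v
          have hm := comm_mem hD hr hs (Ne.symm h1) hneg (t := t) (u := u) (hS _ ha t) (hS _ hb u)
          exact mem_of_filter hD (P := fun k => Nat.testBit S k) hS
            (fun c : ℤ × ℕ × ℕ => (c.1 : F) * (-t) ^ c.2.1 * u ^ c.2.2) _ he hm
      · exact hS k hk
    · exact hS k hk
  · exact hS k hk

theorem run_sound' {hD : InList D} {M : Subgroup (GL D.Idx F)} {W : ℕ → ℕ}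
    (hrot : ∀ s < D.nroots, Has hD M s → Has hD M (W s)) (steps : List (ℕ × ℕ)) :
    ∀ {S : ℕ} (_ : ∀ k, Nat.testBit S k = true → Has hD M k),
    ∀ k, Nat.testBit (run D W S steps) k = true → Has hD M k := by
  induction steps with
  | nil => intro S hS; exact hS
  | cons p steps ih =>
    intro S hS
    exact ih (step_sound' hrot hS p)

theorem group_le_of_run' {hD : InList D} {M : Subgroup (GL D.Idx F)} {W : ℕ → ℕ}
    (hrot : ∀ s < D.nroots, Has hD M s → Has hD M (W s)) {S : ℕ} (hS : ∀ k, Nat.testBit S k = true → Has hD M k)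
    {steps : List (ℕ × ℕ)} (h : run D W S steps = 2 ^ D.nroots - 1) : D.group F ≤ M := by
  rw [group_le_iff hD]
  intro r hr
  refine run_sound' hrot steps hS r ?_
  rw [h, Nat.testBit_two_pow_sub_one]
  exact decide_eq_true hr

/-! ### subgroups of the automorphism group -/

/-- the elements of the Chevalley group inducing elements of `M` -/
def pull (M : Subgroup (MulAut ↥(D.group F))) : Subgroup (GL D.Idx F) :=
  (M.comap (MulAut.conj : ↥(D.group F) →* MulAut ↥(D.group F))).map (D.group F).subtype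

theorem mem_pull {M : Subgroup (MulAut ↥(D.group F))} {g : ↥(D.group F)} :
    (g : GL D.Idx F) ∈ pull M ↔ MulAut.conj g ∈ M := by
  constructor
  · rintro ⟨g', hg', h⟩
    have : g' = g := Subtype.ext h
    rw [← this]; exact hg'
  · intro h; exact ⟨g, h, rfl⟩

theorem range_le_of {M : Subgroup (MulAut ↥(D.group F))} (h : D.group F ≤ pull M) :
    (MulAut.conj : ↥(D.group F) →* MulAut ↥(D.group F)).range ≤ M := by
  rintro _ ⟨g, rfl⟩
  exact mem_pull.1 (h g.2)

/-- the inner automorphism of `x_r(t)` -/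
def xa (hD : InList D) (r : ℕ) (t : F) : MulAut ↥(D.group F) := MulAut.conj (xe hD r t)

theorem xa_add (hD : InList D) (r : ℕ) (s t : F) : xa hD r s * xa hD r t = xa hD r (s + t) := by
  unfold xa
  rw [← map_mul, ← xe_add]

theorem xa_zero (hD : InList D) (r : ℕ) : xa hD r (0 : F) = 1 := by
  unfold xa
  rw [xe_zero, map_one]

theorem has_pull {hD : InList D} {M : Subgroup (MulAut ↥(D.group F))} {r : ℕ} :
    Has hD (pull M) r ↔ ∀ t : F, xa hD r t ∈ M :=
  forall_congr' fun t => mem_pull (g := xe hD r t)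

theorem conj_conj {G : Type*} [Group G] (φ : MulAut G) (g : G) : φ * MulAut.conj g * φ⁻¹ = MulAut.conj (φ g) := by
  ext x
  simp only [MulAut.mul_apply, MulAut.conj_apply, map_mul, map_inv, MulAut.apply_inv_self]

/-- the group of the `x_r(t)` -/
def XA (hD : InList D) (F : Type u) [Field F] (r : ℕ) : Subgroup (MulAut ↥(D.group F)) where
  carrier := {y | ∃ t : F, y = xa hD r t}
  mul_mem' := by
    rintro _ _ ⟨s, rfl⟩ ⟨t, rfl⟩
    exact ⟨s + t, xa_add hD r s t⟩
  one_mem' := ⟨0, (xa_zero hD r).symm⟩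
  inv_mem' := by
    rintro _ ⟨s, rfl⟩
    refine ⟨-s, ?_⟩
    rw [inv_eq_iff_mul_eq_one, xa_add, add_neg_cancel, xa_zero]

theorem mem_XA {hD : InList D} {r : ℕ} {y : MulAut ↥(D.group F)} : y ∈ XA hD F r ↔ ∃ t : F, y = xa hD r t := Iff.rfl

/-- an action by scalars on the root group is irreducible if the scalar is `k` or `k ^ 2` -/
theorem coeffs_bot_or_top' [Finite F] (hD : InList D) {k : Fˣ} (hk : ∀ x : Fˣ, x ∈ Subgroup.zpowers k) {r : ℕ}
    {z : Fˣ} (hz : z = k ∨ z = k ^ 2) {h : MulAut ↥(D.group F)} (hX : ∀ t : F, h * xa hD r t * h⁻¹ = xa hD r ((z : F) * t))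
    {Y : Subgroup (MulAut ↥(D.group F))} (hY : ∀ y ∈ Y, (∃ t : F, y = xa hD r t) → h * y * h⁻¹ ∈ Y) :
    coeffs hD (pull Y) r = ⊥ ∨ coeffs hD (pull Y) r = ⊤ := by
  apply Cfsg.Agent.H136.FieldLem.eq_bot_or_top hk
  intro a ha
  have h1 : ∀ a ∈ coeffs hD (pull Y) r, (z : F) * a ∈ coeffs hD (pull Y) r := by
    intro a ha
    have h2 := hY _ (mem_pull (g := xe hD r a) |>.1 ha) ⟨a, rfl⟩
    change h * xa hD r a * h⁻¹ ∈ Y at h2
    rw [hX] at h2
    exact (mem_pull (g := xe hD r _)).2 h2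
  rcases hz with hz | hz
  · have h2 := h1 _ (h1 _ ha)
    rw [hz, ← mul_assoc, ← pow_two] at h2
    exact h2
  · have h2 := h1 _ ha
    rw [hz] at h2
    exact_mod_cast h2

theorem conj_xa {hD : InList D} {φ : MulAut ↥(D.group F)} {r s : ℕ} {t u : F} (h : φ (xe hD r t) = xe hD s u) :
    φ * xa hD r t * φ⁻¹ = xa hD s u := by
  unfold xa
  rw [conj_conj, h]

theorem xa_inj (hD : InList D) (hinj : Function.Injective (MulAut.conj : ↥(D.group F) →* MulAut ↥(D.group F)))
    {r : ℕ} (hr : r < D.nroots) {s t : F} (hst : xa hD r s = xa hD r t) : s = t := xe_inj hD hr (hinj hst)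

theorem aut_ext (hD : InList D) {φ ψ : MulAut ↥(D.group F)}
    (hφ : ∀ r < D.nroots, ∀ t : F, φ (xe hD r t) = ψ (xe hD r t)) : φ = ψ :=
  H79.SimpleGen.equiv_ext hD φ ψ (fun _ hi t => hφ _ (Cfsg.Agent.S1042.simple_lt hD hi) t)
    (fun _ hi t => hφ _ (neg_simple_lt hD hi) t)

/-- **The torus trick.** -/
theorem core [Finite F] (hD : InList D) (hinj : Function.Injective (MulAut.conj : ↥(D.group F) →* MulAut ↥(D.group F)))
    {k : Fˣ} (hk : ∀ x : Fˣ, x ∈ Subgroup.zpowers k) (hk1 : k ≠ 1)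
    {W : ℕ → ℕ} (hWs : ∀ s < D.nroots, ∃ r < D.nroots, W r = s)
    {χ : ℕ → Fˣ} {h w : MulAut ↥(D.group F)} {τ : ℕ → F ≃+* F}
    (hh : ∀ r < D.nroots, ∀ t : F, h (xe hD r t) = xe hD r ((χ r : F) * t))
    (hw : ∀ r < D.nroots, ∃ c : F, c ≠ 0 ∧ ∀ t : F, w (xe hD r t) = xe hD (W r) (c * τ r t))
    {a a' : ℕ} (ha : a < D.nroots) (ha' : a' < D.nroots)
    (h1 : W a' = a) (c1 : χ a = k) (c2 : χ a' ≠ 1) {M : Subgroup (MulAut ↥(D.group F))} (hhM : h ∈ M)
    (m2 : xa hD a (1 : F) * w ∈ M) : (∀ t : F, xa hD a t ∈ M) ∧ w ∈ M := by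
  classical
  have hX : ∀ r < D.nroots, ∀ t : F, h * xa hD r t * h⁻¹ = xa hD r ((χ r : F) * t) :=
    fun r hr t => conj_xa (hh r hr t)
  obtain ⟨c, hc, hwc⟩ := hw a' ha'
  rw [h1] at hwc
  have hwc0 : ∀ t : F, w * xa hD a' t * w⁻¹ = xa hD a (c * τ a' t) := fun t => conj_xa (hwc t)
  have hpre : ∀ t : F, ∃ s : F, c * τ a' s = t := by
    intro t
    refine ⟨(τ a').symm (c⁻¹ * t), ?_⟩
    rw [RingEquiv.apply_symm_apply, ← mul_assoc, mul_inv_cancel₀ hc, one_mul]
  set κ : F := τ a' (χ a') with hκ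
  have hκ0 : κ ≠ 0 := by
    rw [hκ]
    intro h0
    exact (χ a').ne_zero ((map_eq_zero (τ a')).1 h0)
  have hκ1 : κ ≠ 1 := by
    intro h0
    apply c2
    apply Units.ext
    apply (τ a').injective
    rw [Units.val_one, map_one]; exact h0
  have hk1' : (k : F) ≠ 1 := fun h0 => hk1 (Units.ext h0)
  have hw1 : ∀ t : F, (w * h * w⁻¹) * xa hD a t * (w * h * w⁻¹)⁻¹ = xa hD a (κ * t) := by
    intro t
    obtain ⟨s, rfl⟩ := hpre t
    have h3 : xa hD a (c * τ a' s) = w * xa hD a' s * w⁻¹ := (hwc0 s).symm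
    have h4 : (w * h * w⁻¹) * (w * xa hD a' s * w⁻¹) * (w * h * w⁻¹)⁻¹ = w * (h * xa hD a' s * h⁻¹) * w⁻¹ := by group
    rw [h3, h4, hX a' ha', hwc0, map_mul]
    congr 1
    ring
  have hw2 : ∀ t : F, (w * h * w⁻¹)⁻¹ * xa hD a t * (w * h * w⁻¹) = xa hD a (κ⁻¹ * t) := by
    intro t
    have h3 := hw1 (κ⁻¹ * t)
    rw [mul_inv_cancel_left₀ hκ0] at h3
    rw [← h3]; group
  have hcomm : h * (w * h * w⁻¹) = (w * h * w⁻¹) * h := by
    apply aut_ext hD
    intro r hr t
    obtain ⟨r', hr', hrr⟩ := hWs r hr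
    obtain ⟨d, hd, hdd⟩ := hw r' hr'
    rw [hrr] at hdd
    have hpre' : ∀ t : F, ∃ s : F, xe hD r t = w (xe hD r' s) ∧ d * τ r' s = t := by
      intro t
      refine ⟨(τ r').symm (d⁻¹ * t), ?_, ?_⟩
      · rw [hdd, RingEquiv.apply_symm_apply, ← mul_assoc, mul_inv_cancel₀ hd, one_mul]
      · rw [RingEquiv.apply_symm_apply, ← mul_assoc, mul_inv_cancel₀ hd, one_mul]
    have hval : ∀ t : F, (w * h * w⁻¹) (xe hD r t) = xe hD r (τ r' (χ r') * t) := by
      intro t
      obtain ⟨s, hs, rfl⟩ := hpre' t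
      rw [MulAut.mul_apply, MulAut.mul_apply, hs, MulAut.inv_apply_self, hh r' hr', hdd, map_mul]
      congr 1
      ring
    show h ((w * h * w⁻¹) (xe hD r t)) = (w * h * w⁻¹) (h (xe hD r t))
    rw [hval, hh r hr, hh r hr, hval]
    congr 1
    ring
  have hXM : XA hD F a ≤ M ∧ w ∈ M := by
    refine Cfsg.Agent.H136.TwoGen.torus_trick M (XA hD F a) (h := h) (w := w) (u := xa hD a 1) hhM m2
      ⟨1, rfl⟩ ?_ ?_ ?_ ?_ ?_ hcomm ?_
    · rintro _ ⟨t, rfl⟩
      rw [hw1]; exact ⟨_, rfl⟩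
    · rintro _ ⟨t, rfl⟩
      rw [hw2]; exact ⟨_, rfl⟩
    · intro Y hYX hY
      rcases coeffs_bot_or_top' hD hk (Or.inl rfl) (r := a) (z := k) (h := h) (fun t => by rw [hX a ha, c1]) (Y := Y)
        (fun y hy _ => hY y hy) with h3 | h3
      · left
        rw [eq_bot_iff]
        intro y hy
        obtain ⟨t, rfl⟩ := hYX hy
        have : t ∈ coeffs hD (pull Y) a := (mem_pull (g := xe hD a t)).2 hy
        rw [h3, AddSubgroup.mem_bot] at this
        rw [this, xa_zero]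
        exact Subgroup.mem_bot.2 rfl
      · right
        refine le_antisymm hYX ?_
        rintro _ ⟨t, rfl⟩
        have : t ∈ coeffs hD (pull Y) a := by rw [h3]; exact AddSubgroup.mem_top t
        exact (mem_pull (g := xe hD a t)).1 this
    · refine ⟨xa hD a 1, ⟨1, rfl⟩, fun h3 => ?_⟩
      have h4 := hX a ha 1
      rw [h3, mul_inv_cancel_right, c1, mul_one] at h4
      exact hk1' (xa_inj hD hinj ha h4).symm
    · rintro _ ⟨t, rfl⟩
      rw [hX a ha]; exact ⟨_, rfl⟩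
    · intro h3
      have h4 := hw1 1
      rw [h3, mul_inv_cancel_right, mul_one] at h4
      exact hκ1 (xa_inj hD hinj ha h4).symm
  exact ⟨fun t => hXM.1 ⟨t, rfl⟩, hXM.2⟩

/-- a monomial automorphism rotates the root subgroups of a subgroup containing it -/
theorem has_rot {hD : InList D} {W : ℕ → ℕ} {w : MulAut ↥(D.group F)} {τ : ℕ → F ≃+* F}
    (hw : ∀ r < D.nroots, ∃ c : F, c ≠ 0 ∧ ∀ t : F, w (xe hD r t) = xe hD (W r) (c * τ r t))
    {M : Subgroup (MulAut ↥(D.group F))} (hwM : w ∈ M) :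
    ∀ s < D.nroots, Has hD (pull M) s → Has hD (pull M) (W s) := by
  intro s hs hHs
  rw [has_pull] at hHs ⊢
  obtain ⟨d, hd, hdd⟩ := hw s hs
  intro t
  have h3 := conj_xa (hdd ((τ s).symm (d⁻¹ * t)))
  rw [RingEquiv.apply_symm_apply, ← mul_assoc, mul_inv_cancel₀ hd, one_mul] at h3
  rw [← h3]
  exact M.mul_mem (M.mul_mem hwM (hHs _)) (M.inv_mem hwM)

/-- **Closure of one root subgroup.** -/
theorem range_le_of_one {hD : InList D} {W : ℕ → ℕ} {w : MulAut ↥(D.group F)} {τ : ℕ → F ≃+* F}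
    (hw : ∀ r < D.nroots, ∃ c : F, c ≠ 0 ∧ ∀ t : F, w (xe hD r t) = xe hD (W r) (c * τ r t))
    {M : Subgroup (MulAut ↥(D.group F))} (hwM : w ∈ M) {a : ℕ} (hA : ∀ t : F, xa hD a t ∈ M)
    {steps : List (ℕ × ℕ)} (hrun : run D W (1 <<< a) steps = 2 ^ D.nroots - 1) :
    (MulAut.conj : ↥(D.group F) →* MulAut ↥(D.group F)).range ≤ M := by
  refine range_le_of (group_le_of_run' (hD := hD) (has_rot hw hwM) (S := 1 <<< a) ?_ hrun)
  intro k hk
  rw [Nat.one_shiftLeft, Nat.testBit_two_pow] at hk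
  have : a = k := by simpa using hk
  exact this ▸ has_pull.2 hA

/-- **Closure of two root subgroups.** -/
theorem range_le_of_two {hD : InList D} {W : ℕ → ℕ} {w : MulAut ↥(D.group F)} {τ : ℕ → F ≃+* F}
    (hw : ∀ r < D.nroots, ∃ c : F, c ≠ 0 ∧ ∀ t : F, w (xe hD r t) = xe hD (W r) (c * τ r t))
    {M : Subgroup (MulAut ↥(D.group F))} (hwM : w ∈ M) {a b : ℕ} (hA : ∀ t : F, xa hD a t ∈ M)
    (hB : ∀ t : F, xa hD b t ∈ M)
    {steps : List (ℕ × ℕ)} (hrun : run D W ((1 <<< a) ||| (1 <<< b)) steps = 2 ^ D.nroots - 1) :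
    (MulAut.conj : ↥(D.group F) →* MulAut ↥(D.group F)).range ≤ M := by
  refine range_le_of (group_le_of_run' (hD := hD) (has_rot hw hwM) (S := (1 <<< a) ||| (1 <<< b)) ?_ hrun)
  intro k hk
  rcases testBit_insert hk with h3 | rfl
  · rw [Nat.one_shiftLeft, Nat.testBit_two_pow] at h3
    have : a = k := by simpa using h3
    exact this ▸ has_pull.2 hA
  · exact has_pull.2 hB

/-- **Generation, one root.** -/
theorem gen_one [Finite F] (hD : InList D) (hinj : Function.Injective (MulAut.conj : ↥(D.group F) →* MulAut ↥(D.group F)))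
    {k : Fˣ} (hk : ∀ x : Fˣ, x ∈ Subgroup.zpowers k) (hk1 : k ≠ 1)
    {W : ℕ → ℕ} (hWs : ∀ s < D.nroots, ∃ r < D.nroots, W r = s)
    {χ : ℕ → Fˣ} {h w : MulAut ↥(D.group F)} {τ : ℕ → F ≃+* F}
    (hh : ∀ r < D.nroots, ∀ t : F, h (xe hD r t) = xe hD r ((χ r : F) * t))
    (hw : ∀ r < D.nroots, ∃ c : F, c ≠ 0 ∧ ∀ t : F, w (xe hD r t) = xe hD (W r) (c * τ r t))
    {a a' : ℕ} (ha : a < D.nroots) (ha' : a' < D.nroots)
    (h1 : W a' = a) (c1 : χ a = k) (c2 : χ a' ≠ 1) {steps : List (ℕ × ℕ)}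
    (hrun : run D W (1 <<< a) steps = 2 ^ D.nroots - 1) :
    (MulAut.conj : ↥(D.group F) →* MulAut ↥(D.group F)).range ≤ Subgroup.closure {h, xa hD a 1 * w} := by
  obtain ⟨hA, hwM⟩ := core hD hinj hk hk1 hWs hh hw ha ha' h1 c1 c2 (M := Subgroup.closure {h, xa hD a 1 * w})
    (Subgroup.subset_closure (by simp)) (Subgroup.subset_closure (by simp))
  exact range_le_of_one hw hwM hA hrun

/-- **Generation, two roots.** -/
theorem gen_aut [Finite F] (hD : InList D) (hinj : Function.Injective (MulAut.conj : ↥(D.group F) →* MulAut ↥(D.group F)))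
    {k : Fˣ} (hk : ∀ x : Fˣ, x ∈ Subgroup.zpowers k) (hk1 : k ≠ 1)
    {W : ℕ → ℕ} (hWs : ∀ s < D.nroots, ∃ r < D.nroots, W r = s)
    {χ : ℕ → Fˣ} {h w : MulAut ↥(D.group F)} {τ : ℕ → F ≃+* F}
    (hh : ∀ r < D.nroots, ∀ t : F, h (xe hD r t) = xe hD r ((χ r : F) * t))
    (hw : ∀ r < D.nroots, ∃ c : F, c ≠ 0 ∧ ∀ t : F, w (xe hD r t) = xe hD (W r) (c * τ r t))
    {a b a' b' : ℕ} (ha : a < D.nroots) (hb : b < D.nroots) (ha' : a' < D.nroots) (hb' : b' < D.nroots)
    (h1 : W a' = a) (h2 : W b' = b) (c1 : χ a = k) (c2 : χ a' ≠ 1) (c3 : χ b = 1)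
    (c4 : χ b' = k ∨ χ b' = k ^ 2) {steps : List (ℕ × ℕ)}
    (hrun : run D W ((1 <<< a) ||| (1 <<< b')) steps = 2 ^ D.nroots - 1) :
    (MulAut.conj : ↥(D.group F) →* MulAut ↥(D.group F)).range ≤
      Subgroup.closure {h * xa hD b 1, xa hD a 1 * w} := by
  classical
  set M := Subgroup.closure {h * xa hD b (1 : F), xa hD a (1 : F) * w} with hM
  have m1 : h * xa hD b (1 : F) ∈ M := Subgroup.subset_closure (by simp)
  have m2 : xa hD a (1 : F) * w ∈ M := Subgroup.subset_closure (by simp)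
  have hX : ∀ r < D.nroots, ∀ t : F, h * xa hD r t * h⁻¹ = xa hD r ((χ r : F) * t) :=
    fun r hr t => conj_xa (hh r hr t)
  have hcb : Commute h (xa hD b (1 : F)) := by
    have h3 := hX b hb 1
    rw [c3, Units.val_one, one_mul] at h3
    exact mul_inv_eq_iff_eq_mul.1 h3
  have hN : h ^ Nat.card Fˣ = 1 := by
    apply aut_ext hD
    intro r hr t
    have h3 : ∀ n : ℕ, ∀ t : F, (h ^ n) (xe hD r t) = xe hD r ((χ r : F) ^ n * t) := by
      intro n
      induction n with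
      | zero => intro t; rw [pow_zero, pow_zero, one_mul]; rfl
      | succ n ih =>
        intro t
        rw [pow_succ, MulAut.mul_apply, hh r hr, ih, pow_succ, mul_assoc]
    have h4 : (χ r : F) ^ Nat.card Fˣ = 1 := by
      have h5 : (χ r) ^ Nat.card Fˣ = 1 := pow_card_eq_one'
      have h6 := congrArg Units.val h5
      rw [Units.val_pow_eq_pow_val, Units.val_one] at h6
      exact h6
    rw [h3, h4, one_mul]
    rfl
  obtain ⟨p, hp⟩ := CharP.exists F
  have hpp : Nat.Prime p := by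
    have := hp
    exact (CharP.char_is_prime_or_zero F p).resolve_right (CharP.char_ne_zero_of_finite F p)
  have hxp : (xa hD b (1 : F)) ^ p = 1 := by
    have h3 : ∀ n : ℕ, (xa hD b (1 : F)) ^ n = xa hD b (n : F) := by
      intro n
      induction n with
      | zero => rw [pow_zero, Nat.cast_zero, xa_zero]
      | succ n ih => rw [pow_succ, ih, xa_add, Nat.cast_succ]
    rw [h3, CharP.cast_eq_zero, xa_zero]
  have hco : Nat.Coprime (Nat.card Fˣ) p := by
    have : Fintype F := Fintype.ofFinite F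
    rw [Nat.card_units, Nat.card_eq_fintype_card]
    have h3 : p ∣ Fintype.card F := by
      have := hp
      exact (CharP.cast_eq_zero_iff F p _).1 (Nat.cast_card_eq_zero F)
    have h4 : 0 < Fintype.card F := Fintype.card_pos
    refine Nat.Coprime.symm ((Nat.Prime.coprime_iff_not_dvd hpp).2 fun h5 => ?_)
    have h6 : p ∣ 1 := by
      have := Nat.dvd_sub h3 h5
      have e : Fintype.card F - (Fintype.card F - 1) = 1 := by omega
      rwa [e] at this
    exact hpp.one_lt.ne' (Nat.dvd_one.1 h6)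
  obtain ⟨hhM, hbM⟩ := mem_of_coprime hcb hN hxp hco m1
  obtain ⟨hA, hwM⟩ := core hD hinj hk hk1 hWs hh hw ha ha' h1 c1 c2 hhM m2
  -- the second root subgroup
  have hB : ∀ t : F, xa hD b' t ∈ M := by
    obtain ⟨d, hd, hdd⟩ := hw b' hb'
    rw [h2] at hdd
    have hs : ∃ s : F, d * τ b' s = 1 :=
      ⟨(τ b').symm d⁻¹, by rw [RingEquiv.apply_symm_apply, mul_inv_cancel₀ hd]⟩
    obtain ⟨s, hs⟩ := hs
    have hs0 : s ≠ 0 := by
      rintro rfl
      rw [map_zero, mul_zero] at hs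
      exact zero_ne_one hs
    have hm : xa hD b' s ∈ M := by
      have h3 := conj_xa (hdd s)
      rw [hs] at h3
      have e : xa hD b' s = w⁻¹ * xa hD b 1 * w := by
        rw [← h3]; group
      rw [e]
      exact M.mul_mem (M.mul_mem (M.inv_mem hwM) hbM) hwM
    rcases coeffs_bot_or_top' hD hk c4 (hX b' hb') (Y := M)
      (fun y hy _ => M.mul_mem (M.mul_mem hhM hy) (M.inv_mem hhM)) with h3 | h3
    · exfalso
      have : s ∈ coeffs hD (pull M) b' := (mem_pull (g := xe hD b' s)).2 hm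
      rw [h3, AddSubgroup.mem_bot] at this
      exact hs0 this
    · intro t
      have : t ∈ coeffs hD (pull M) b' := by rw [h3]; exact AddSubgroup.mem_top t
      exact (mem_pull (g := xe hD b' t)).1 this
  exact range_le_of_two hw hwM hA hB hrun

end Cfsg.Agent.H65.Cos
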