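import Cfsg.Agent.H891.DG.Nielsen
import Cfsg.Agent.H20.Cos2.Core
import Cfsg.Agent.H79.FieldAuts
import Cfsg.Agent.H79.DiagSymm
import Cfsg.Agent.H70.DiagSym
import Cfsg.Agent.H65.Cos.Gen

/-!
# S4180, Cos2 rows of the untwisted Chevalley groups: reduction to trivial field part (helper65)

* `lift_of_rel` : Euclid with a relation instead of a homomorphism to a cyclic group;
* `cos2_of_mono` : if every automorphism is `conj g * W`, `W` monomial with root map in a class `Ω` closed under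
  composition, then it is enough to lift the pairs `W, W'` of such monomial automorphisms with trivial field part
  of `W`;
* `exists_mono_id` : every automorphism is `conj g * W`, `W` monomial with trivial root map, if there is no diagram
  symmetry;
* `Lift.transport` : transport along isomorphisms.
-/

set_option autoImplicit false

namespace Cfsg.Agent.H65.Cos

open Cfsg.Lie Cfsg.Agent.ChevalleyStructure Cfsg.Agent.ChevalleyStructure.Elts
  Cfsg.Agent.H70.ChevFix Cfsg.Agent.H70.ChevField Cfsg.Agent.H70.OutCount Cfsg.Agent.H70.ChevDiag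
  Cfsg.Agent.H20.Cos2 Cfsg.Agent.H891.Gen Cfsg.Agent.H891.DG Cfsg.Agent.H891.DG.Nielsen
  Cfsg.Agent.H135.TwoG Cfsg.Agent.H440.TwoGen

universe u

/-! ### Euclid with a relation -/

section Rel

variable {G : Type u} [Group G] {N : Subgroup G} {C : Type*} [Group C] [Finite C] [IsCyclic C] {R : G → C → Prop}

theorem rel_pow [Finite G] (hmul : ∀ x y a b, R x a → R y b → R (x * y) (a * b)) {x : G} {a : C} (h : R x a) :
    ∀ n : ℕ, R (x ^ (n + 1)) (a ^ (n + 1)) := by
  intro n
  induction n with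
  | zero => simpa using h
  | succ n ih =>
    rw [pow_succ x, pow_succ a]
    exact hmul _ _ _ _ ih h

theorem rel_inv [Finite G] (hmul : ∀ x y a b, R x a → R y b → R (x * y) (a * b)) {x : G} {a : C} (h : R x a) :
    R x⁻¹ a⁻¹ := by
  have h1 : 0 < Nat.card G * Nat.card C := Nat.mul_pos Nat.card_pos Nat.card_pos
  obtain ⟨n, hn⟩ : ∃ n, Nat.card G * Nat.card C * 2 = n + 2 := ⟨Nat.card G * Nat.card C * 2 - 2, by omega⟩
  have h2 : x ^ (n + 1) = x⁻¹ := by
    rw [eq_inv_iff_mul_eq_one, ← pow_succ, show n + 1 + 1 = Nat.card G * Nat.card C * 2 by omega, mul_assoc, pow_mul,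
      pow_card_eq_one', one_pow]
  have h3 : a ^ (n + 1) = a⁻¹ := by
    rw [eq_inv_iff_mul_eq_one, ← pow_succ, show n + 1 + 1 = Nat.card C * (Nat.card G * 2) by rw [← hn]; ring, pow_mul,
      pow_card_eq_one', one_pow]
  rw [← h2, ← h3]
  exact rel_pow hmul h n

/-- Euclid: it is enough to lift the pairs whose first member is related to `1`. -/
theorem lift_of_rel [Finite G] (hN : N.Normal) (hmul : ∀ x y a b, R x a → R y b → R (x * y) (a * b))
    (hex : ∀ x, ∃ a, R x a) (h : ∀ x y : G, R x 1 → Lift N x y) (x y : G) : Lift N x y := by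
  obtain ⟨c, hc⟩ := IsCyclic.exists_generator (α := C)
  have hexp : ∀ g : C, ∃ n : ℕ, g = c ^ n := by
    intro g
    obtain ⟨n, hn⟩ := (mem_powers_iff_mem_zpowers.2 (hc g))
    exact ⟨n, hn.symm⟩
  have key : ∀ k a b : ℕ, a + b ≤ k → ∀ x y : G, R x (c ^ a) → R y (c ^ b) → Lift N x y := by
    intro k
    induction k with
    | zero =>
      intro a b hab x y hx hy
      have ha : a = 0 := by omega
      subst ha
      exact h x y (by rwa [pow_zero] at hx)
    | succ k ih =>
      intro a b hab x y hx hy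
      rcases Nat.eq_zero_or_pos a with ha | ha
      · subst ha
        exact h x y (by rwa [pow_zero] at hx)
      rcases Nat.eq_zero_or_pos b with hb | hb
      · subst hb
        exact (h y x (by rwa [pow_zero] at hy)).symm
      rcases le_total a b with hle | hle
      · have h1 : Lift N x (x⁻¹ * y) := by
          refine ih a (b - a) (by omega) _ _ hx ?_
          have h2 := hmul _ _ _ _ (rel_inv hmul hx) hy
          have h3 : (c ^ a)⁻¹ * c ^ b = c ^ (b - a) := by
            rw [inv_mul_eq_iff_eq_mul, ← pow_add, Nat.add_sub_cancel' hle]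
          rwa [h3] at h2
        have h2 := Lift.mul_left hN h1
        rwa [mul_inv_cancel_left] at h2
      · have h1 : Lift N y (y⁻¹ * x) := by
          refine ih b (a - b) (by omega) _ _ hy ?_
          have h2 := hmul _ _ _ _ (rel_inv hmul hy) hx
          have h3 : (c ^ b)⁻¹ * c ^ a = c ^ (a - b) := by
            rw [inv_mul_eq_iff_eq_mul, ← pow_add, Nat.add_sub_cancel' hle]
          rwa [h3] at h2
        have h2 := Lift.mul_left hN h1
        rw [mul_inv_cancel_left] at h2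
        exact h2.symm
  obtain ⟨f, hf⟩ := hex x
  obtain ⟨g, hg⟩ := hex y
  obtain ⟨a, ha⟩ := hexp f
  obtain ⟨b, hb⟩ := hexp g
  exact key (a + b) a b le_rfl x y (ha ▸ hf) (hb ▸ hg)

end Rel

/-! ### transport -/

section Transport

/-- `Cos2` is invariant under isomorphisms -/
theorem cos2_of_equiv {T : Type u} {T' : Type*} [Group T] [Group T'] (e : T ≃* T')
    (h : ∀ x y : MulAut T', Lift (MulAut.conj : T' →* MulAut T').range x y) : Cos2 T := by
  intro x y
  let E : MulAut T ≃* MulAut T' := MulAut.congr e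
  have hE : ∀ g : T, E (MulAut.conj g) = MulAut.conj (e g) := by
    intro g
    ext z
    show e (g * e.symm z * g⁻¹) = _
    rw [MulAut.conj_apply, map_mul, map_mul, map_inv, e.apply_symm_apply]
  obtain ⟨s, ⟨a, ha⟩, t, ⟨b, hb⟩, hle⟩ := h (E x) (E y)
  subst ha hb
  refine ⟨MulAut.conj (e.symm a), ⟨_, rfl⟩, MulAut.conj (e.symm b), ⟨_, rfl⟩, ?_⟩
  rintro _ ⟨g, rfl⟩
  have h1 : MulAut.conj (e g) ∈ Subgroup.closure {E x * MulAut.conj a, E y * MulAut.conj b} := hle ⟨e g, rfl⟩
  have h2 : Subgroup.closure {E x * MulAut.conj a, E y * MulAut.conj b} =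
      (Subgroup.closure {x * MulAut.conj (e.symm a), y * MulAut.conj (e.symm b)}).map E.toMonoidHom := by
    rw [MonoidHom.map_closure, Set.image_pair]
    have h3 : E.toMonoidHom (x * MulAut.conj (e.symm a)) = E x * MulAut.conj a := by
      show E (x * MulAut.conj (e.symm a)) = _
      rw [map_mul, hE, e.apply_symm_apply]
    have h4 : E.toMonoidHom (y * MulAut.conj (e.symm b)) = E y * MulAut.conj b := by
      show E (y * MulAut.conj (e.symm b)) = _
      rw [map_mul, hE, e.apply_symm_apply]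
    rw [h3, h4]
  rw [h2, ← hE] at h1
  obtain ⟨z, hz, hz'⟩ := h1
  have : z = MulAut.conj g := E.injective hz'
  exact this ▸ hz

end Transport

/-! ### monomial automorphisms -/

variable {D : ChevalleyDatum} {F : Type u} [Field F]

/-- **Reduction to trivial field part.** -/
theorem cos2_of_mono [Finite F] (hD : InList D) (Ω : (ℕ → ℕ) → Prop)
    (hΩ : ∀ ω ω', Ω ω → Ω ω' → Ω (fun r => ω (ω' r)))
    (hM : ∀ θ : MulAut ↥(D.group F), ∃ (g : ↥(D.group F)) (W : MulAut ↥(D.group F)) (ω : ℕ → ℕ) (d : ℕ → Fˣ)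
      (σ : F ≃+* F), Ω ω ∧ Mono hD W ω d σ ∧ θ = MulAut.conj g * W)
    (h : ∀ (W W' : MulAut ↥(D.group F)) (ω ω' : ℕ → ℕ) (d d' : ℕ → Fˣ) (σ' : F ≃+* F), Ω ω → Ω ω' →
      Mono hD W ω d (RingEquiv.refl F) → Mono hD W' ω' d' σ' →
        Lift (MulAut.conj : ↥(D.group F) →* MulAut ↥(D.group F)).range W W') :
    ∀ x y : MulAut ↥(D.group F), Lift (MulAut.conj : ↥(D.group F) →* MulAut ↥(D.group F)).range x y := by
  have hfin : Finite (MulAut ↥(D.group F)) :=
    Finite.of_injective (fun f : MulAut ↥(D.group F) => (f : ↥(D.group F) → ↥(D.group F))) DFunLike.coe_injective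
  have hcyc : IsCyclic (RingAut F) := H79.FieldAuts.isCyclic_ringAut F
  have hfin2 : Finite (RingAut F) :=
    Finite.of_injective (fun f : RingAut F => (f : F → F)) DFunLike.coe_injective
  have hN := inn_normal ↥(D.group F)
  refine lift_of_rel (C := RingAut F) hN (R := fun θ σ => ∃ (g : ↥(D.group F)) (W : MulAut ↥(D.group F)) (ω : ℕ → ℕ)
    (d : ℕ → Fˣ), Ω ω ∧ Mono hD W ω d σ ∧ θ = MulAut.conj g * W) ?_ ?_ ?_
  · rintro x y a b ⟨g, W, ω, d, h1, h2, rfl⟩ ⟨g', W', ω', d', h1', h2', rfl⟩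
    refine ⟨g * W g', W * W', _, _, hΩ _ _ h1 h1', h2.mul h2', ?_⟩
    rw [map_mul, ← H65.Cos.conj_conj]
    group
  · intro x
    obtain ⟨g, W, ω, d, σ, h1, h2, h3⟩ := hM x
    exact ⟨σ, g, W, ω, d, h1, h2, h3⟩
  · rintro x y ⟨g, W, ω, d, h1, h2, rfl⟩
    obtain ⟨g', W', ω', d', σ', h1', h2', rfl⟩ := hM y
    have hl := h W W' ω ω' d d' σ' h1 h1' h2 h2'
    refine Lift.congr ?_ ?_ hl
    · have e : (MulAut.conj g * W)⁻¹ * W = W⁻¹ * (MulAut.conj g)⁻¹ * (W⁻¹)⁻¹ := by group
      rw [e]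
      exact hN.conj_mem _ (inv_mem ⟨g, rfl⟩) _
    · have e : (MulAut.conj g' * W')⁻¹ * W' = W'⁻¹ * (MulAut.conj g')⁻¹ * (W'⁻¹)⁻¹ := by group
      rw [e]
      exact hN.conj_mem _ (inv_mem ⟨g', rfl⟩) _

/-- an automorphism fixing the fundamental root subgroups and their negatives is monomial -/
theorem mono_of_perm_one (hD : InList D) {φ : MulAut ↥(D.group F)} (hφ : Perm D F φ 1) :
    ∃ (χ : ℕ → Fˣ) (τ : F ≃+* F), Mono hD φ id χ τ := by
  obtain ⟨c, σ, hc, h1, h2, h3⟩ := exists_field hD hφ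
  obtain ⟨τ, hτ⟩ := sigma_eq hD (σ := σ) h3
  obtain ⟨χ, hχ, h4, h5⟩ := exists_diagAut (F := F) hD fun i => Units.mk0 (c i) (hc i)
  obtain ⟨α, hα⟩ := exists_fieldAut hD τ
  have e : φ = diagAut hD hχ * α := by
    apply ext_values hD
    · intro i t
      rw [h1, hτ, MulAut.mul_apply, hα _ (Cfsg.Agent.S1042.simple_lt hD i.2), diagAut_xe, h4]
      rfl
    · intro i t
      rw [h2, hτ, MulAut.mul_apply, hα _ (neg_simple_lt hD i.2), diagAut_xe, h5, Units.val_inv_eq_inv_val]
      rfl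
  refine ⟨χ, τ, fun r hr => hr, fun r hr => ⟨r, hr, rfl⟩, fun r hr t => ?_⟩
  rw [e, MulAut.mul_apply, hα r hr, diagAut_xe]
  rfl

/-- no diagram symmetries: every automorphism is the product of an inner, a diagonal and a field automorphism -/
theorem exists_mono_id [Finite F] (hD : InList D)
    (hs : ∀ π : Equiv.Perm (Fin D.rank), D.IsDiagramSymmetry π → π = 1) (θ : MulAut ↥(D.group F)) :
    ∃ (g : ↥(D.group F)) (W : MulAut ↥(D.group F)) (χ : ℕ → Fˣ) (τ : F ≃+* F), Mono hD W id χ τ ∧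
      θ = MulAut.conj g * W := by
  obtain ⟨x, π, -, -, h1, h2⟩ := exists_conj_perm (F := F) hD θ
  have hp : Perm D F (MulAut.conj x * θ) π := ⟨h1, h2⟩
  have hπ : π = 1 := hs π (H70.DiagSym.isDiagramSymmetry hD hp)
  rw [hπ] at hp
  obtain ⟨χ, τ, h3⟩ := mono_of_perm_one hD hp
  refine ⟨x⁻¹, _, χ, τ, h3, ?_⟩
  rw [map_inv, inv_mul_cancel_left]

end Cfsg.Agent.H65.Cos
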